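import Cfsg.Agent.Lib.Big.Defs
import Cfsg.Agent.Lib.PGroup.AbelSylow

/-! small matrix computations in `PSL(2,q)` and `PSU(3,4)` -/

set_option autoImplicit false

namespace Cfsg.Lib.Big
open Subgroup Cfsg.Lib
open scoped MatrixGroups Matrix

/-- an element of order dividing `r`, inverted by an element of order at most two -/
def HasInv (G : Type*) [Group G] (r : ℕ) : Prop :=
  ∃ t x : G, t * t = 1 ∧ x ≠ 1 ∧ x ^ r = 1 ∧ t * x * t⁻¹ = x⁻¹

theorem HasInv.of_equiv {G H : Type*} [Group G] [Group H] {r : ℕ} (e : G ≃* H) (h : HasInv H r) :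
    HasInv G r := by
  obtain ⟨t, x, h1, h2, h3, h4⟩ := h
  refine ⟨e.symm t, e.symm x, by rw [← map_mul, h1, map_one], fun h => h2 (by simpa using h),
    by rw [← map_pow, h3, map_one], by rw [← map_inv, ← map_mul, ← map_mul, h4, map_inv]⟩

theorem HasInv.quot {G : Type*} [Group G] {r : ℕ} {t x : G} (h1 : t * t ∈ center G) (h2 : x ∉ center G)
    (h3 : x ^ r = 1) (h4 : t * x * t⁻¹ = x⁻¹) : HasInv (G ⧸ center G) r :=
  ⟨(t : G ⧸ center G), (x : G ⧸ center G), by rw [← QuotientGroup.mk_mul, QuotientGroup.eq_one_iff]; exact h1,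
    fun h => h2 ((QuotientGroup.eq_one_iff _).1 h), by rw [← QuotientGroup.mk_pow, h3]; rfl,
    by rw [← QuotientGroup.mk_inv, ← QuotientGroup.mk_mul, ← QuotientGroup.mk_mul, h4]; rfl⟩

theorem psl2_hasInv_three {F : Type*} [Field F] [Fintype F] (hF : Odd (Fintype.card F)) (h3 : (3 : F) ≠ 0) :
    HasInv PSL(2, F) 3 := by
  have h2 := h9_two_ne_zero_of_odd_card hF
  obtain ⟨u, v, huv⟩ : ∃ u v : F, u ^ 2 + (3 * v ^ 2 + 1) = 0 := by
    obtain ⟨u, v, h⟩ := FiniteField.exists_root_sum_quadratic (R := F) (f := Polynomial.X ^ 2)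
      (g := Polynomial.C 3 * Polynomial.X ^ 2 + 1) (Polynomial.degree_X_pow 2)
      (by
        rw [Polynomial.degree_add_eq_left_of_degree_lt] <;>
          rw [Polynomial.degree_C_mul_X_pow 2 h3]
        · rfl
        · rw [Polynomial.degree_one]; norm_num) (Nat.odd_iff.1 hF)
    exact ⟨u, v, by simpa using h⟩
  let x : SL(2, F) := h9_mk 0 (-1) 1 (-1) (by ring)
  let y : SL(2, F) := h9_mk (u - v) (2 * v) (u + v) (v - u) (by linear_combination -huv)
  have hy : y * y = -1 := by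
    rw [h9_sl2_ext_iff]
    simp only [h9_sl2_mul_apply, y, h9_mk_00, h9_mk_01, h9_mk_10, h9_mk_11]
    refine ⟨?_, ?_, ?_, ?_⟩ <;> simp <;> first | ring1 | linear_combination huv
  have hx : x * x * x = 1 := by
    rw [h9_sl2_ext_iff]
    simp only [h9_sl2_mul_apply, x, h9_mk_00, h9_mk_01, h9_mk_10, h9_mk_11]
    refine ⟨?_, ?_, ?_, ?_⟩ <;> simp
  have hxy : x * y * x = y := by
    rw [h9_sl2_ext_iff]
    simp only [h9_sl2_mul_apply, x, y, h9_mk_00, h9_mk_01, h9_mk_10, h9_mk_11]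
    refine ⟨?_, ?_, ?_, ?_⟩ <;> ring
  refine HasInv.quot (t := y) (x := x) (by rw [hy, pg_center_sl2 h2]; exact Or.inr rfl) ?_
    (by rw [pow_succ, pow_two, hx]) ?_
  · rw [pg_center_sl2 h2]
    rintro (h | h)
    · have := congrArg (fun g : SL(2, F) => g 1 0) h
      simp [x] at this
    · have := congrArg (fun g : SL(2, F) => g 1 0) h
      simp [x] at this
  · calc y * x * y⁻¹ = x⁻¹ * (x * y * x) * y⁻¹ := by group
      _ = x⁻¹ := by rw [hxy]; group

/-- upper unitriangular matrices -/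
def uhom (F : Type*) [Field F] : Multiplicative F →* SL(2, F) where
  toFun a := h9_mk 1 a.toAdd 0 1 (by ring)
  map_one' := by rw [h9_sl2_ext_iff]; simp
  map_mul' a b := by
    rw [h9_sl2_ext_iff]
    simp only [h9_sl2_mul_apply, h9_mk_00, h9_mk_01, h9_mk_10, h9_mk_11, toAdd_mul]
    refine ⟨?_, ?_, ?_, ?_⟩ <;> ring

theorem psl2_char_three {F : Type*} [Field F] [Fintype F] (h3 : (3 : F) = 0)
    (hq : Fintype.card F % 8 = 3 ∨ Fintype.card F % 8 = 5) (h5 : 5 ≤ Fintype.card F) :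
    ∃ (r : ℕ) (t d : PSL(2, F)) (U : Subgroup PSL(2, F)), r.Prime ∧ r ≠ 2 ∧ t * t = 1 ∧ d ≠ 1 ∧ d ^ r = 1 ∧
      t * d * t⁻¹ = d⁻¹ ∧ IsPGroup 3 U ∧ d ∈ normalizer (U : Set PSL(2, F)) ∧
      d ∉ centralizer (U : Set PSL(2, F)) := by
  have hF : Odd (Fintype.card F) := Nat.odd_iff.2 (by omega)
  have h2 := h9_two_ne_zero_of_odd_card hF
  have hc : CharP F 3 := (CharP.charP_iff_prime_eq_zero (p := 3) Nat.prime_three).2 (by exact_mod_cast h3)
  obtain ⟨n, -, hn⟩ := FiniteField.card F 3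
  have h8 : Fintype.card F % 8 = 3 := by
    have : ∀ k : ℕ, 3 ^ k % 8 = 1 ∨ 3 ^ k % 8 = 3 := fun k => by
      induction k with
      | zero => simp
      | succ k ih => rw [pow_succ]; omega
    have := this n
    omega
  obtain ⟨r, hr, hrd⟩ := Nat.exists_prime_and_dvd (n := (Fintype.card F - 1) / 2) (by omega)
  have hr2 : r ≠ 2 := by rintro rfl; omega
  have : Fact r.Prime := ⟨hr⟩
  obtain ⟨μ, hμ⟩ := exists_prime_orderOf_dvd_card' (G := Fˣ) r (by
    rw [Nat.card_units, Nat.card_eq_fintype_card]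
    exact hrd.trans ⟨2, by omega⟩)
  have hμ2 : (μ : F) * μ ≠ 1 := fun h => by
    have : μ ^ 2 = 1 := Units.ext (by simpa [pow_two] using h)
    have := orderOf_dvd_of_pow_eq_one this
    rw [hμ] at this
    exact hr2 ((Nat.prime_dvd_prime_iff_eq hr Nat.prime_two).1 this)
  let dh : Fˣ →* SL(2, F) :=
    { toFun := fun a => h9_mk a 0 0 (a⁻¹ : Fˣ) (by simp)
      map_one' := by rw [h9_sl2_ext_iff]; simp
      map_mul' := fun a b => by
        rw [h9_sl2_ext_iff]
        simp only [h9_sl2_mul_apply, h9_mk_00, h9_mk_01, h9_mk_10, h9_mk_11]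
        refine ⟨?_, ?_, ?_, ?_⟩ <;> simp [mul_comm] }
  have hconj : ∀ a : F, dh μ * uhom F (Multiplicative.ofAdd a) =
      uhom F (Multiplicative.ofAdd (μ * μ * a)) * dh μ := fun a => by
    rw [h9_sl2_ext_iff]
    simp only [h9_sl2_mul_apply, dh, uhom, MonoidHom.coe_mk, OneHom.coe_mk, h9_mk_00, h9_mk_01, h9_mk_10,
      h9_mk_11, toAdd_ofAdd]
    refine ⟨?_, ?_, ?_, ?_⟩ <;> simp
    field_simp
  have hw : dh μ * h9_w F * dh μ = h9_w F := by
    rw [h9_sl2_ext_iff]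
    simp only [h9_sl2_mul_apply, dh, h9_w, MonoidHom.coe_mk, OneHom.coe_mk, h9_mk_00, h9_mk_01, h9_mk_10,
      h9_mk_11]
    refine ⟨?_, ?_, ?_, ?_⟩ <;> simp
  let π := QuotientGroup.mk' (center SL(2, F))
  have hnc : π (dh μ) ∉ centralizer ((π.comp (uhom F)).range : Set PSL(2, F)) := fun h => by
    have h1 := mem_centralizer_iff.1 h _ ⟨Multiplicative.ofAdd 1, rfl⟩
    have h4 : π (uhom F (Multiplicative.ofAdd (μ * μ * 1 : F))) = π (uhom F (Multiplicative.ofAdd 1)) := by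
      have := congrArg π (hconj 1)
      rw [map_mul, map_mul] at this
      exact mul_right_cancel (this.symm.trans h1.symm)
    have h5 : uhom F (Multiplicative.ofAdd (μ * μ * 1 - 1 : F)) ∈ center SL(2, F) := by
      rw [← QuotientGroup.eq_one_iff, ofAdd_sub, map_div]
      show π _ = 1
      rw [map_div, h4, div_self']
    rw [pg_center_sl2 h2] at h5
    rcases h5 with h5 | h5
    · have := congrArg (fun g : SL(2, F) => g 0 1) h5
      simp [uhom] at this
      exact hμ2 (by linear_combination this)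
    · have := congrArg (fun g : SL(2, F) => g 0 1) h5
      simp [uhom] at this
      exact hμ2 (by linear_combination this)
  refine ⟨r, π (h9_w F), π (dh μ), (π.comp (uhom F)).range, hr, hr2, ?_, ?_, ?_, ?_, ?_, ?_, hnc⟩
  · rw [← map_mul, h9_w_sq]
    exact (QuotientGroup.eq_one_iff _).2 ((pg_center_sl2 h2).2 (Or.inr rfl))
  · intro h; exact hnc (h ▸ one_mem _)
  · rw [← map_pow, ← map_pow, ← hμ, pow_orderOf_eq_one, map_one, map_one]
  · rw [← map_inv, ← map_mul, ← map_mul, ← map_inv]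
    congr 1
    calc h9_w F * dh μ * (h9_w F)⁻¹ = (dh μ)⁻¹ * (dh μ * h9_w F * dh μ) * (h9_w F)⁻¹ := by group
      _ = (dh μ)⁻¹ := by rw [hw]; group
  · rintro ⟨_, a, rfl⟩
    refine ⟨1, Subtype.ext ?_⟩
    show (π.comp (uhom F)) a ^ 3 ^ 1 = 1
    rw [← map_pow]
    have : a ^ 3 ^ 1 = 1 := by
      apply Multiplicative.toAdd.injective
      simp [h3]
    rw [this, map_one]
  · refine h9_mem_normalizer_of_conj_mem ?_
    rintro _ ⟨a, rfl⟩
    refine ⟨Multiplicative.ofAdd (μ * μ * a.toAdd), ?_⟩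
    have := congrArg π (hconj a.toAdd)
    rw [map_mul, map_mul, ofAdd_toAdd] at this
    show π _ = π _ * π _ * (π _)⁻¹
    rw [this]; group

theorem psu3_hasInv_three {F : Type*} [Field F] [Fintype F] (hF : Fintype.card F = 4 ^ 2) :
    HasInv (PSU 3 F 4) 3 := by
  have h2 : (2 : F) = 0 := by
    have := FiniteField.cast_card_eq_zero F
    rw [hF] at this
    have h : (2 : F) ^ 4 = 0 := by push_cast at this; linear_combination this
    exact pow_eq_zero_iff (by norm_num) |>.1 h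
  let x0 : SL(3, F) := ⟨!![0, 0, 1; 1, 0, 0; 0, 1, 0], by simp [Matrix.det_fin_three]⟩
  let t0 : SL(3, F) := ⟨!![0, 1, 0; 1, 0, 0; 0, 0, 1], by
    simp [Matrix.det_fin_three]; linear_combination -h2⟩
  have hx : x0 ∈ SU 3 F 4 := fun u v => by
    show hermForm 3 F 4 (x0.1 *ᵥ u) (x0.1 *ᵥ v) = _
    simp [hermForm, x0, Fin.sum_univ_three, Matrix.mulVec, dotProduct]
    ring
  have ht : t0 ∈ SU 3 F 4 := fun u v => by
    show hermForm 3 F 4 (t0.1 *ᵥ u) (t0.1 *ᵥ v) = _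
    simp [hermForm, t0, Fin.sum_univ_three, Matrix.mulVec, dotProduct]
    ring
  have e1 : t0 * t0 = 1 := by
    apply Subtype.ext
    show t0.1 * t0.1 = 1
    ext i j; fin_cases i <;> fin_cases j <;> simp [t0, Matrix.mul_apply, Fin.sum_univ_three]
  have e2 : x0 * x0 * x0 = 1 := by
    apply Subtype.ext
    show x0.1 * x0.1 * x0.1 = 1
    ext i j; fin_cases i <;> fin_cases j <;> simp [x0, Matrix.mul_apply, Fin.sum_univ_three]
  have e3 : x0 * t0 * x0 = t0 := by
    apply Subtype.ext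
    show x0.1 * t0.1 * x0.1 = t0.1
    ext i j; fin_cases i <;> fin_cases j <;> simp [x0, t0, Matrix.mul_apply, Fin.sum_univ_three]
  refine HasInv.quot (t := ⟨t0, ht⟩) (x := ⟨x0, hx⟩) ?_ ?_ ?_ ?_
  · have : (⟨t0, ht⟩ * ⟨t0, ht⟩ : SU 3 F 4) = 1 := Subtype.ext e1
    rw [this]; exact one_mem _
  · intro h
    have h1 : t0 * x0 = x0 * t0 := congrArg Subtype.val (mem_center_iff.1 h ⟨t0, ht⟩)
    have : (t0.1 * x0.1) 0 0 = (x0.1 * t0.1) 0 0 := congrArg (fun g : SL(3, F) => g 0 0) h1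
    simp [x0, t0, Matrix.mul_apply, Fin.sum_univ_three] at this
  · apply Subtype.ext
    show x0 ^ 3 = 1
    rw [pow_succ, pow_two, e2]
  · apply Subtype.ext
    show t0 * x0 * t0⁻¹ = x0⁻¹
    calc t0 * x0 * t0⁻¹ = x0⁻¹ * (x0 * t0 * x0) * t0⁻¹ := by group
      _ = x0⁻¹ := by rw [e3]; group

end Cfsg.Lib.Big
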